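import Cfsg.Agent.H936.DSTw
import Cfsg.Agent.H971.OutTwoBase

/-!
# `DT` for the exceptional groups with a root group datum with field coordinates
-/

set_option autoImplicit false
set_option linter.unusedSectionVars false
set_option maxHeartbeats 400000

namespace Cfsg.Agent.H971.OutTwo

open Cfsg.Agent.H936
open CoxeterSystem Cfsg.Agent.ChevalleyStructure.CoxeterGeom Cfsg.Agent.Tits.Roots Cfsg.Agent.Tits.Core
  Cfsg.Agent.Tits.Exchange Cfsg.Agent.Nodes.Reps Cfsg.Agent.Nodes.BNOf Cfsg.Agent.Nodes.StabComb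
  Cfsg.Agent.Nodes.Bruhat Cfsg.Agent.Nodes.OppDec Cfsg.Agent.Nodes.LeviDec Cfsg.Agent.Nodes.NormalForm
  Cfsg.Agent.KFacts.RgdOpp Cfsg.Agent.KFacts.RgdAut Cfsg.Agent.KFacts.RgdDiag Cfsg.Agent.KFacts.RgdRigid
  Cfsg.Agent.KFacts.RgdField Cfsg.Agent.KFacts.RgdTau Cfsg.Agent.KFacts.RgdNodes Cfsg.Agent.KFacts.RgdSyl

open scoped commutatorElement

universe u v

section general

variable {I W Y : Type*} [Fintype I] [DecidableEq I] [Group W] [Group Y] {M : CoxeterMatrix I}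
  {cs : CoxeterSystem M W} {A : I → I → ℤ} {h : IsCartan M A} {p : ℕ} {T : Subgroup Y} {n : I → Y}
  {X : (I → ℤ) → Subgroup Y}

variable {K : I → Type v} [∀ i, Field (K i)] [∀ i, Finite (K i)] {x : ∀ i, K i → Y} {χ : ∀ i, Y → K i}

/-- The frame automorphisms fixing the diagram. -/
def FrameOne (cs : CoxeterSystem M W) (h : IsCartan M A) (T : Subgroup Y) (X : (I → ℤ) → Subgroup Y) :
    Subgroup (Frame cs h X) where
  carrier := {β | Diag T X (β : MulAut Y) 1}
  mul_mem' := fun {a b} ha hb => by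
    have := Diag.mul ha hb
    rwa [mul_one] at this
  one_mem' := Diag.one
  inv_mem' := fun {a} ha => by
    have := Diag.inv ha
    rwa [inv_one] at this

theorem frame_sq (R : RGD cs h p T n X) [Finite W]
    (hG1 : RGD.Sup X {x | IsRoot cs h x} = ⊤)
    (hsq : ∀ σ : Equiv.Perm I, (∀ i j, M (σ i) (σ j) = M i j) → σ ^ 2 = 1) (β : Frame cs h X) :
    β * β ∈ FrameOne cs h T X := by
  have hG : GG cs h T X = ⊤ := GG_eq_top hG1
  obtain ⟨σ, hσ⟩ := exists_diag R hG β.2.1 β.2.2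
  have h1 := hσ.mul hσ
  have h2 : σ * σ = 1 := by rw [← pow_two]; exact hsq σ (hσ.matrix (R := R))
  rw [h2] at h1
  exact h1

theorem frameOne_derived (R : RGD cs h p T n X) [Finite W]
    (hG1 : RGD.Sup X {x | IsRoot cs h x} = ⊤)
    (C : ∀ i, Coord T (X (sr i)) (x i) (χ i)) :
    ⁅⁅FrameOne cs h T X, FrameOne cs h T X⁆, ⁅FrameOne cs h T X, FrameOne cs h T X⁆⁆ = ⊥ := by
  have hG : GG cs h T X = ⊤ := GG_eq_top hG1
  -- second step
  have h2 : ∀ β ∈ ⁅FrameOne cs h T X, FrameOne cs h T X⁆, NTau T X χ (β : MulAut Y) 1 := by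
    let A2 : Subgroup (Frame cs h X) :=
      { carrier := {β | NTau T X χ (β : MulAut Y) 1}
        mul_mem' := fun {a b} ha hb => by
          have := NTau.mul ha hb
          rwa [mul_one] at this
        one_mem' := NTau.one
        inv_mem' := fun {a} ha => by
          have := NTau.inv ha
          rwa [inv_one] at this }
    have : ⁅FrameOne cs h T X, FrameOne cs h T X⁆ ≤ A2 := by
      rw [Subgroup.commutator_le]
      intro a ha b hb
      obtain ⟨σ, hσ⟩ := exists_ntau C ha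
      obtain ⟨τ, hτ⟩ := exists_ntau C hb
      have h3 := ((hσ.mul hτ).mul hσ.inv).mul hτ.inv
      have h4 : σ * τ * σ⁻¹ * τ⁻¹ = 1 := by
        have h5 : σ * τ = τ * σ := by
          funext i
          exact Schreier.ClassBase.ringAut_comm (σ i) (τ i)
        rw [h5]
        group
      rw [h4] at h3
      exact h3
    exact fun β hβ => this hβ
  -- third step
  rw [eq_bot_iff, Subgroup.commutator_le]
  intro a ha b hb
  rw [Subgroup.mem_bot, commutatorElement_eq_one_iff_mul_comm]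
  apply Subtype.ext
  change (a : MulAut Y) * (b : MulAut Y) = (b : MulAut Y) * (a : MulAut Y)
  have ha2 := h2 a ha
  have hb2 := h2 b hb
  rw [← mul_inv_eq_one]
  have hD : Diag T X ((a : MulAut Y) * (b : MulAut Y) * ((b : MulAut Y) * (a : MulAut Y))⁻¹) 1 := by
    have := (ha2.diag.mul hb2.diag).mul (hb2.diag.mul ha2.diag).inv
    simpa using this
  apply Diag.eq_one R hG1 hD
  intro i y hy
  obtain ⟨c, hc, ec⟩ := NTau.semi C ha2 i
  obtain ⟨d, hd, ed⟩ := NTau.semi C hb2 i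
  have hcommX : ∀ y ∈ X (sr i), ((a : MulAut Y) * (b : MulAut Y)) y = ((b : MulAut Y) * (a : MulAut Y)) y := by
    intro y hy
    obtain ⟨t, rfl⟩ := ((C i).mem y).1 hy
    rw [MulAut.mul_apply, MulAut.mul_apply, ec, ed, ec, ed]
    congr 1
    change c * (d * t) = d * (c * t)
    ring
  have hmem : ((b : MulAut Y) * (a : MulAut Y))⁻¹ y ∈ X (sr i) := by
    have h6 : Diag T X ((b : MulAut Y) * (a : MulAut Y))⁻¹ 1 := by
      have := (hb2.diag.mul ha2.diag).inv
      simpa using this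
    exact (h6.pos i y).2 hy
  rw [MulAut.mul_apply, hcommX _ hmem, MulAut.apply_inv_self]

theorem dt_of_rgd (R : RGD cs h p T n X) [Finite W] [Finite Y] [Fact p.Prime]
    (hG1 : RGD.Sup X {x | IsRoot cs h x} = ⊤)
    (C : ∀ i, Coord T (X (sr i)) (x i) (χ i))
    (hsq : ∀ σ : Equiv.Perm I, (∀ i j, M (σ i) (σ j) = M i j) → σ ^ 2 = 1) :
    DT Y := by
  refine dt_of_hom (Frame cs h X).subtype (FrameOne cs h T X) (fun α => ?_) (frame_sq R hG1 hsq) ?_
  · obtain ⟨k, β, hβ, hα⟩ := exists_frame_mul R hG1 α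
    exact ⟨k, ⟨β, hβ⟩, hα⟩
  · rw [frameOne_derived R hG1 C, Subgroup.map_bot]
    exact bot_le

end general

section chev

open Cfsg.Agent.Nodes.RGDChev Cfsg.Agent.KFacts.RgdChevCoord
open Cfsg.Lie Cfsg.Agent.ChevalleyStructure Cfsg.Agent.ChevalleyStructure.Elts
  Cfsg.Agent.ChevalleyStructure.NPerm Cfsg.Agent.ChevalleyStructure.CoxeterGeomTypes

variable {D : ChevalleyDatum} {l : ℕ} {M : CoxeterMatrix (Fin l)}

theorem dt_group (hp : IsType D l M) (hM : SymTwo M) {K : Type u} [Field K] [Finite K] :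
    DT ↥(D.group K) := by
  obtain ⟨p, hchar⟩ := CharP.exists K
  have : Fact p.Prime := ⟨CharP.char_is_prime K p⟩
  have hW := finite_W hp (M.toCoxeterSystem)
  have R := rgd (K := K) hp M.toCoxeterSystem p
  have hG1 : RGD.Sup (XX D l K) {x | IsRoot M.toCoxeterSystem hp.isCartan x} = ⊤ := G1_eq_top hp M.toCoxeterSystem
  have C := coords (K := K) hp M.toCoxeterSystem p
  exact dt_of_rgd R hG1 (K := fun _ => K) (fun i => C.coord _ (isRoot_sr _ _ i)) hM

theorem dt_chevG2 {G : Type*} [Group G] (h : IsoChevG2 G) : DT G := by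
  obtain ⟨K, _, _, -, ⟨e⟩⟩ := h
  exact DT.of_equiv e.symm (dt_group (D := chevG2) (l := 2) (M := CoxeterMatrix.G₂)
    (by simp [IsType, typeList]) (symTwo_two _))

theorem dt_f4 {G : Type*} [Group G] (h : IsoF4 G) : DT G := by
  obtain ⟨K, _, _, ⟨e⟩⟩ := h
  exact DT.of_equiv e.symm (dt_group (D := chevF4) (l := 4) (M := CoxeterMatrix.F₄)
    (by simp [IsType, typeList]) symTwo_F4)

theorem dt_e6 {G : Type*} [Group G] (h : IsoChevE6 G) : DT G := by
  obtain ⟨K, _, _, ⟨e⟩⟩ := h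
  exact DT.of_equiv e.symm (dt_group (D := chevE6) (l := 6) (M := CoxeterMatrix.E₆)
    (by simp [IsType, typeList]) symTwo_E6)

theorem dt_e7 {G : Type*} [Group G] (h : IsoE7 G) : DT G := by
  obtain ⟨K, _, _, ⟨e⟩⟩ := h
  exact DT.of_equiv e.symm (dt_group (D := chevE7) (l := 7) (M := CoxeterMatrix.E₇)
    (by simp [IsType, typeList]) symTwo_E7)

theorem dt_e8 {G : Type*} [Group G] (h : IsoE8 G) : DT G := by
  obtain ⟨K, _, _, ⟨e⟩⟩ := h
  exact DT.of_equiv e.symm (dt_group (D := chevE8) (l := 8) (M := CoxeterMatrix.E₈)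
    (by simp [IsType, typeList]) symTwo_E8)

end chev

section tw

open Cfsg.Agent.Nodes.RGDTwGen Cfsg.Agent.Nodes.RGDChev
  Cfsg.Agent.Nodes.RGDFold Cfsg.Agent.Nodes.RGDFoldSL
open Cfsg.Lie Cfsg.Agent.ChevalleyStructure Cfsg.Agent.ChevalleyStructure.Elts
  Cfsg.Agent.ChevalleyStructure.TwistedU Cfsg.Agent.ChevalleyStructure.TwistedFix
  Cfsg.Agent.ChevalleyStructure.TwistedFixOrbit
open Cfsg.Agent.ChevalleyStructure.SL2Hom (up lo)
open Cfsg.Agent.KFacts.TwESix.NodeCoord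

section E6

open Cfsg.Agent.Nodes.RGDTwE6 Cfsg.Agent.Nodes.RGDTwNode.E6
open Cfsg.Agent.ChevalleyStructure.TwE6Basic (exists_frob)

theorem dt_twistedE6 {K : Type} [Field K] [Fintype K] {q : ℕ} (hq : IsPrimePow q)
    (hK : Fintype.card K = q ^ 2) : DT ↥(twistedE6 K q) := by
  obtain ⟨φ, hφ, hqq⟩ := exists_frob hq hK
  obtain ⟨p, hchar⟩ := CharP.exists K
  have : Fact p.Prime := ⟨CharP.char_is_prime K p⟩
  have R := Cfsg.Agent.Nodes.RGDTwE6.rgd CoxeterMatrix.F₄.toCoxeterSystem hφ hqq p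
  have hG1 := Cfsg.Agent.Nodes.RGDTwE6.G1_eq_top CoxeterMatrix.F₄.toCoxeterSystem hφ hqq
  have hW : Finite CoxeterMatrix.F₄.Group := finite_W (hp := hp) CoxeterMatrix.F₄.toCoxeterSystem Cfsg.Agent.Nodes.RGDTwE6.isCartan foldData
  exact dt_of_rgd R hG1 (K := fun i => ↥(Fx φ ((rest i).length + 1)))
    (fun i => coord (foldGrp hφ hqq) (nodeOK i) (hf_E6 φ i)) symTwo_F4

theorem dt_2e6 {G : Type*} [Group G] (h : Iso2E6 G) : DT G := by
  obtain ⟨K, _, _, q, hq, hK, ⟨e⟩⟩ := h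
  exact DT.of_equiv e.symm (dt_twistedE6 hq hK)

end E6

section D4

open Cfsg.Agent.Nodes.RGDTwD4 Cfsg.Agent.Nodes.RGDTwNode.D4

theorem dt_twistedD4 {K : Type} [Field K] [Fintype K] {q : ℕ} (hq : IsPrimePow q)
    (hK : Fintype.card K = q ^ 3) : DT ↥(twistedD4 K q) := by
  obtain ⟨φ, hφ⟩ := D4Fixed.exists_frob hq hK
  obtain ⟨p, hchar⟩ := CharP.exists K
  have : Fact p.Prime := ⟨CharP.char_is_prime K p⟩
  have R := Cfsg.Agent.Nodes.RGDTwD4.rgd CoxeterMatrix.G₂.toCoxeterSystem hK hφ p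
  have hG1 := Cfsg.Agent.Nodes.RGDTwD4.G1_eq_top CoxeterMatrix.G₂.toCoxeterSystem hK hφ
  have hW : Finite CoxeterMatrix.G₂.Group := finite_W (hp := hp) CoxeterMatrix.G₂.toCoxeterSystem Cfsg.Agent.Nodes.RGDTwD4.isCartan foldData
  exact dt_of_rgd R hG1 (K := fun i => ↥(Fx φ ((rest i).length + 1)))
    (fun i => coord (foldGrp hφ (D4Fixed.twisted_le_fix hK hφ)) (nodeOK i) (hf_D4 φ i)) (symTwo_two _)

theorem dt_3d4 {G : Type*} [Group G] (h : Iso3D4 G) : DT G := by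
  obtain ⟨K, _, _, q, hq, hK, ⟨e⟩⟩ := h
  exact DT.of_equiv e.symm (dt_twistedD4 hq hK)

end D4

end tw

end Cfsg.Agent.H971.OutTwo
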